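import Mathlib
import Cfsg.Agent.SectRankFour.AutAlt
import Cfsg.Agent.S0242
import Cfsg.Agent.S0243
import Cfsg.Agent.S0265
import Cfsg.Agent.S0813
import Cfsg.Agent.S0815
import Cfsg.Agent.Prune
set_option linter.all false
prune_inst 0x7f00000000000000000000000000000000000000000000000000000000000000000000000000000000000000000000000000000000000000000000000000000000000000000000000000000000000000003fffffffffffffffffffffffffffbeffbdffffffff
open scoped Cfsg.Agent.FastGrp

/-!
# `Out(PSL₃(3))`, `Out(PSU₃(3))`, `Out(PSU₃(4))` are abelian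

For a non-abelian simple `K` isomorphic to one of these groups: `psl_three`, `psu_three_three`,
`psu_three_four` (conclusion `OutAb K`).
-/

set_option autoImplicit false

open Cfsg

namespace Cfsg.Agent.SectRankFour.OutLie

open Cfsg.Agent.SectRankFour.OutAb

theorem center_eq_bot {K : Type*} [Group K] [IsSimpleGroup K] (h : ¬ Group.IsSolvable K) :
    Subgroup.center K = ⊥ := by
  rcases (inferInstance : (Subgroup.center K).Normal).eq_bot_or_eq_top with h1 | h1
  · exact h1
  · exfalso
    apply h
    refine Group.isSolvable_of_comm (fun a b => ?_)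
    have : b ∈ Subgroup.center K := by rw [h1]; exact Subgroup.mem_top b
    exact (Subgroup.mem_center_iff.1 this a)

theorem outComm_psl_three {F : Type*} [Field F] [Fintype F] (hF : Fintype.card F = 3)
    (hZ : Subgroup.center (Matrix.ProjectiveSpecialLinearGroup (Fin 3) F) = ⊥) :
    OutComm (Matrix.ProjectiveSpecialLinearGroup (Fin 3) F) := by
  have : Fact (Nat.Prime 3) := ⟨Nat.prime_three⟩
  have h1 := Cfsg.Agent.S0813.result (F := F) 3 1 le_rfl (by rw [hF]; norm_num) 3 (by norm_num)
    (by norm_num)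
  have h2 := Cfsg.Agent.S0265.result (F := F) 3
  have h3 := Cfsg.Agent.S0242.result hF 3 (by norm_num)
  have h4 := Cfsg.Agent.S0243.result hF 3 (by norm_num)
  have hcard : Nat.card (Matrix.ProjGenLinGroup (Fin 3) F) =
      Nat.card (Matrix.ProjectiveSpecialLinearGroup (Fin 3) F) := by
    rw [h2]
    rw [← h3] at h4
    norm_num at h4
    omega
  rw [hcard] at h1
  have : Finite (Matrix.ProjectiveSpecialLinearGroup (Fin 3) F) :=
    inferInstanceAs (Finite (_ ⧸ _))
  exact outComm_of_card hZ (m := 2) (by norm_num) (by rw [h1]; norm_num)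

theorem outComm_psu_three {F : Type*} [Field F] [Fintype F] (hF : Fintype.card F = 3 ^ 2)
    (hZ : Subgroup.center (Cfsg.PSU 3 F 3) = ⊥) : OutComm (Cfsg.PSU 3 F 3) := by
  have : Fact (Nat.Prime 3) := ⟨Nat.prime_three⟩
  have h1 := Cfsg.Agent.S0815.result (F := F) 3 1 le_rfl (q := 3) (by norm_num) hF 3 (by norm_num)
    (by norm_num)
  have : Finite (Cfsg.PSU 3 F 3) := inferInstanceAs (Finite (_ ⧸ _))
  exact outComm_of_card hZ (m := 2) (by norm_num) (by rw [h1]; norm_num)

theorem outComm_psu_four {F : Type*} [Field F] [Fintype F] (hF : Fintype.card F = 4 ^ 2)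
    (hZ : Subgroup.center (Cfsg.PSU 3 F 4) = ⊥) : OutComm (Cfsg.PSU 3 F 4) := by
  have : Fact (Nat.Prime 2) := ⟨Nat.prime_two⟩
  have h1 := Cfsg.Agent.S0815.result (F := F) 2 2 (by norm_num) (q := 4) (by norm_num) hF 3
    (by norm_num) (by norm_num)
  have : Finite (Cfsg.PSU 3 F 4) := inferInstanceAs (Finite (_ ⧸ _))
  exact outComm_of_card hZ (m := 4) (by norm_num) (by rw [h1]; norm_num)

section simple

variable {K : Type*} [Group K] [IsSimpleGroup K]

theorem center_eq_bot_of_equiv (hK : ¬ Group.IsSolvable K) {L : Type*} [Group L] (e : K ≃* L) :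
    Subgroup.center L = ⊥ := by
  have h := center_eq_bot hK
  rw [eq_bot_iff]
  intro z hz
  have h1 : e.symm z ∈ Subgroup.center K := by
    rw [Subgroup.mem_center_iff] at hz ⊢
    intro g
    apply e.injective
    rw [map_mul, map_mul, MulEquiv.apply_symm_apply, hz]
  rw [h, Subgroup.mem_bot] at h1
  rw [Subgroup.mem_bot, ← e.apply_symm_apply z, h1, map_one]

theorem psl_three (hK : ¬ Group.IsSolvable K) {F : Type*} [Field F] [Fintype F]
    (hF : Fintype.card F = 3) (e : K ≃* Matrix.ProjectiveSpecialLinearGroup (Fin 3) F) : OutAb K :=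
  OutAb.congr e (outAb_iff.2 (outComm_psl_three hF (center_eq_bot_of_equiv hK e)))

theorem psu_three_three (hK : ¬ Group.IsSolvable K) {F : Type*} [Field F] [Fintype F]
    (hF : Fintype.card F = 3 ^ 2) (e : K ≃* Cfsg.PSU 3 F 3) : OutAb K :=
  OutAb.congr e (outAb_iff.2 (outComm_psu_three hF (center_eq_bot_of_equiv hK e)))

theorem psu_three_four (hK : ¬ Group.IsSolvable K) {F : Type*} [Field F] [Fintype F]
    (hF : Fintype.card F = 4 ^ 2) (e : K ≃* Cfsg.PSU 3 F 4) : OutAb K :=
  OutAb.congr e (outAb_iff.2 (outComm_psu_four hF (center_eq_bot_of_equiv hK e)))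

end simple

end Cfsg.Agent.SectRankFour.OutLie

private theorem dce_688ac76e4163 : _root_.True := by
  try have : _root_.True := by simp only [_root_.Matrix.ProjectiveSpecialLinearGroup.congr_simp]
  exact _root_.True.intro
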